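/-
A two-group of permutations of eight points has trivial fifth term of its lower central series.
-/
import Mathlib
import Cfsg.Agent.Chev.Tab

set_option autoImplicit false
set_option maxRecDepth 100000

namespace Cfsg.Agent.TitsTwoTrans

open Cfsg.Agent.Chev (allBelow allBelow_iff)
open scoped commutatorElement

/-- A bit of a code. -/
def bitOf (m i : ℕ) : ℕ := Nat.land (Nat.shiftRight m i) 1

/-- The point map of a code of a symmetry of the binary tree of depth three. -/
def fmap (m i : ℕ) : ℕ :=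
  let a := Nat.xor i (bitOf m (i / 2))
  let c := Nat.xor a (2 * bitOf m (4 + i / 4))
  Nat.xor c (4 * bitOf m 6)

/-- The inverse point map. -/
def fback (m j : ℕ) : ℕ :=
  let a := Nat.xor j (4 * bitOf m 6)
  let c := Nat.xor a (2 * bitOf m (4 + a / 4))
  Nat.xor c (bitOf m (c / 2))

/-- The code of a point map. -/
def encode (g : ℕ → ℕ) : ℕ :=
  g 0 % 2 + 2 * (g 2 % 2) + 4 * (g 4 % 2) + 8 * (g 6 % 2) + 16 * (g 0 / 2 % 2) + 32 * (g 4 / 2 % 2) +
    64 * (g 0 / 4 % 2)

/-- The product of codes. -/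
def cmul (a b : ℕ) : ℕ := encode fun i => fmap a (fmap b i)

/-- The inverse of a code. -/
def cinv (a : ℕ) : ℕ := encode (fback a)

theorem unary_ok : allBelow (fun a => Nat.beq (encode (fmap a)) a && Nat.blt (cinv a) 128 &&
    allBelow (fun i => Nat.blt (fmap a i) 8 && Nat.beq (fmap a (fmap (cinv a) i)) i &&
      Nat.beq (fmap (cinv a) (fmap a i)) i) 8) 128 = true := by decide +kernel

theorem binary_ok : allBelow (fun a => allBelow (fun b => Nat.blt (cmul a b) 128 &&
    allBelow (fun i => Nat.beq (fmap (cmul a b) i) (fmap a (fmap b i))) 8) 128) 128 = true := by decide +kernel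

theorem unary {a : ℕ} (ha : a < 128) : encode (fmap a) = a ∧ cinv a < 128 ∧
    ∀ i < 8, fmap a i < 8 ∧ fmap a (fmap (cinv a) i) = i ∧ fmap (cinv a) (fmap a i) = i := by
  have h := (allBelow_iff _ _).mp unary_ok a ha
  simp only [Bool.and_eq_true] at h
  refine ⟨Nat.eq_of_beq_eq_true h.1.1, by simpa [Nat.blt_eq] using h.1.2, fun i hi => ?_⟩
  have h' := (allBelow_iff _ _).mp h.2 i hi
  simp only [Bool.and_eq_true] at h'
  exact ⟨by simpa [Nat.blt_eq] using h'.1.1, Nat.eq_of_beq_eq_true h'.1.2, Nat.eq_of_beq_eq_true h'.2⟩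

theorem binary {a b : ℕ} (ha : a < 128) (hb : b < 128) : cmul a b < 128 ∧
    ∀ i < 8, fmap (cmul a b) i = fmap a (fmap b i) := by
  have h := (allBelow_iff _ _).mp ((allBelow_iff _ _).mp binary_ok a ha) b hb
  simp only [Bool.and_eq_true] at h
  exact ⟨by simpa [Nat.blt_eq] using h.1, fun i hi => Nat.eq_of_beq_eq_true ((allBelow_iff _ _).mp h.2 i hi)⟩

/-- The permutation of a code. -/
def permOf (a : Fin 128) : Equiv.Perm (Fin 8) where
  toFun i := ⟨fmap a i, ((unary a.2).2.2 i i.2).1⟩
  invFun i := ⟨fmap (cinv a) i, ((unary (unary a.2).2.1).2.2 i i.2).1⟩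
  left_inv i := Fin.ext ((unary a.2).2.2 i i.2).2.2
  right_inv i := Fin.ext ((unary a.2).2.2 i i.2).2.1

/-- The elements coded by a list. -/
def CodedBy (C : ℕ → Bool) (σ : Equiv.Perm (Fin 8)) : Prop :=
  ∃ m < 128, C m = true ∧ ∀ i : Fin 8, (σ i : ℕ) = fmap m i

/-- Closure check of a set of codes. -/
noncomputable def closedOK (C : ℕ → Bool) : Bool :=
  C 0 && allBelow (fun a => bif C a then C (cinv a) && allBelow (fun b => bif C b then C (cmul a b) else true) 128
    else true) 128

/-- The subgroup of a closed set of codes. -/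
def codeGroup (C : ℕ → Bool) (h : closedOK C = true) : Subgroup (Equiv.Perm (Fin 8)) where
  carrier := {σ | CodedBy C σ}
  one_mem' := by
    simp only [closedOK, Bool.and_eq_true] at h
    exact ⟨0, by norm_num, h.1, by decide⟩
  mul_mem' := by
    simp only [closedOK, Bool.and_eq_true] at h
    rintro σ τ ⟨a, ha, hCa, ea⟩ ⟨b, hb, hCb, eb⟩
    have h1 := (allBelow_iff _ _).mp h.2 a ha
    rw [hCa, cond_true, Bool.and_eq_true] at h1
    have h2 := (allBelow_iff _ _).mp h1.2 b hb
    rw [hCb, cond_true] at h2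
    refine ⟨cmul a b, (binary ha hb).1, h2, fun i => ?_⟩
    rw [Equiv.Perm.mul_apply, ea, eb, (binary ha hb).2 i i.2]
  inv_mem' := by
    simp only [closedOK, Bool.and_eq_true] at h
    rintro σ ⟨a, ha, hCa, ea⟩
    have h1 := (allBelow_iff _ _).mp h.2 a ha
    rw [hCa, cond_true, Bool.and_eq_true] at h1
    refine ⟨cinv a, (unary ha).2.1, h1.1, fun i => ?_⟩
    have e := ea (σ⁻¹ i)
    rw [Equiv.Perm.coe_inv, Equiv.apply_symm_apply] at e
    rw [e, ((unary ha).2.2 _ (σ.symm i).2).2.2]
    rfl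

/-- All codes. -/
def cAll (_ : ℕ) : Bool := true

/-- The terms of the lower central series by codes. -/
def cLev : ℕ → ℕ → Bool
  | 0, _ => true
  | 1, m => [0, 3, 5, 6, 9, 10, 12, 15, 48, 51, 53, 54, 57, 58, 60, 63].contains m
  | 2, m => [0, 3, 12, 15].contains m
  | 3, m => [0, 15].contains m
  | _, m => Nat.beq m 0

theorem closed_lev : ∀ j < 5, closedOK (cLev j) = true := by decide +kernel

theorem commutator_lev : ∀ j < 4, allBelow (fun a => bif cLev j a then allBelow (fun b =>
    cLev (j + 1) (cmul (cmul a b) (cmul (cinv a) (cinv b)))) 128 else true) 128 = true := by decide +kernel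

/-- The Sylow two-subgroup of the symmetric group on eight points. -/
noncomputable def sylEight : Subgroup (Equiv.Perm (Fin 8)) := codeGroup (cLev 0) (closed_lev 0 (by norm_num))

theorem card_sylEight : Nat.card sylEight = 2 ^ 7 := by
  let e : Fin 128 → sylEight := fun a => ⟨permOf a, a, a.2, rfl, fun _ => rfl⟩
  have he : Function.Bijective e := by
    refine ⟨fun a b hab => Fin.ext ?_, fun ⟨σ, m, hm, _, es⟩ => ⟨⟨m, hm⟩, Subtype.ext (Equiv.ext fun i => Fin.ext ?_)⟩⟩
    · have h : ∀ i : Fin 8, fmap a i = fmap b i := fun i =>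
        congrArg (fun σ : sylEight => ((σ.1 i : Fin 8) : ℕ)) hab
      rw [← (unary a.2).1, ← (unary b.2).1]
      simp only [encode]
      have h0 : fmap a 0 = fmap b 0 := h 0
      have h2 : fmap a 2 = fmap b 2 := h 2
      have h4 : fmap a 4 = fmap b 4 := h 4
      have h6 : fmap a 6 = fmap b 6 := h 6
      rw [h0, h2, h4, h6]
    · exact (es i).symm
  rw [← Nat.card_congr (Equiv.ofBijective e he), Nat.card_eq_fintype_card, Fintype.card_fin]
  norm_num

theorem lcs_sylEight : sylEight.lowerCentralSeries 4 = ⊥ := by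
  have key : ∀ j, ∀ hj : j < 5, sylEight.lowerCentralSeries j ≤ codeGroup (cLev j) (closed_lev j hj) := by
    intro j
    induction j with
    | zero => intro _; exact le_rfl
    | succ j ih =>
      intro hj
      rw [Subgroup.lowerCentralSeries_succ, Subgroup.commutator_le]
      intro σ hσ τ hτ
      obtain ⟨a, ha, hCa, ea⟩ := ih (by omega) hσ
      obtain ⟨b, hb, hCb, eb⟩ := hτ
      have h1 := (allBelow_iff _ _).mp (commutator_lev j (by omega)) a ha
      rw [hCa, cond_true] at h1
      have h2 := (allBelow_iff _ _).mp h1 b hb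
      have hia := (unary ha).2.1
      have hib := (unary hb).2.1
      refine ⟨_, (binary (binary ha hb).1 (binary hia hib).1).1, h2, fun i => ?_⟩
      have inv_apply : ∀ {m : ℕ} (hm : m < 128) {π : Equiv.Perm (Fin 8)}, (∀ i : Fin 8, (π i : ℕ) = fmap m i) →
          ∀ i : Fin 8, (π⁻¹ i : ℕ) = fmap (cinv m) i := by
        intro m hm π hπ i
        have e := hπ (π⁻¹ i)
        rw [Equiv.Perm.coe_inv, Equiv.apply_symm_apply] at e
        rw [e, ((unary hm).2.2 _ (π.symm i).2).2.2]
        rfl
      have hA : fmap (cinv a) (fmap (cinv b) i) < 8 := by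
        rw [← inv_apply hb eb i, ← inv_apply ha ea]; exact Fin.isLt _
      have hB : fmap (cmul (cinv a) (cinv b)) i = fmap (cinv a) (fmap (cinv b) i) := (binary hia hib).2 i i.2
      rw [commutatorElement_def, Equiv.Perm.mul_apply, Equiv.Perm.mul_apply, Equiv.Perm.mul_apply, ea, eb,
        inv_apply ha ea, inv_apply hb eb, (binary (binary ha hb).1 (binary hia hib).1).2 i i.2, hB,
        (binary ha hb).2 _ hA]
  refine eq_bot_iff.mpr ((key 4 (by norm_num)).trans ?_)
  rintro σ ⟨m, -, hm, es⟩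
  rw [Subgroup.mem_bot]
  refine Equiv.ext fun i => Fin.ext ?_
  rw [es, show m = 0 from Nat.eq_of_beq_eq_true hm]
  revert i
  decide

/-- A two-group of permutations of eight points has trivial fifth lower central term. -/
theorem lcs_two_group {Q : Subgroup (Equiv.Perm (Fin 8))} (hQ : IsPGroup 2 Q) :
    Q.lowerCentralSeries 4 = ⊥ := by
  have : Fact (Nat.Prime 2) := ⟨Nat.prime_two⟩
  let P : Sylow 2 (Equiv.Perm (Fin 8)) := Sylow.ofCard sylEight (by
    rw [card_sylEight, Nat.card_perm, Nat.card_fin, show Nat.factorial 8 = 2 ^ 7 * 315 from rfl,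
      Nat.factorization_mul (by norm_num) (by norm_num), Finsupp.add_apply,
      Nat.Prime.factorization_pow Nat.prime_two, Finsupp.single_eq_same,
      Nat.factorization_eq_zero_of_not_dvd (by norm_num : ¬ 2 ∣ 315)])
  obtain ⟨R, hR⟩ := hQ.exists_le_sylow
  obtain ⟨g, hg⟩ := MulAction.exists_smul_eq (Equiv.Perm (Fin 8)) P R
  have hle : Q ≤ sylEight.map (MulAut.conj g).toMonoidHom := by
    intro x hx
    have h := hR hx
    rw [← hg, Sylow.coe_subgroup_smul] at h
    obtain ⟨y, hy, rfl⟩ := h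
    exact ⟨y, hy, rfl⟩
  refine eq_bot_iff.mpr ((Subgroup.lowerCentralSeries_mono 4 hle).trans ?_)
  show (sylEight.map (MulAut.conj g).toMonoidHom).lowerCentralSeries 4 ≤ ⊥
  rw [← Subgroup.map_lowerCentralSeries, lcs_sylEight, Subgroup.map_bot]

end Cfsg.Agent.TitsTwoTrans
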