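/-
Actions of two-groups and a degree bound from a prime cycle.
-/
import Cfsg.Agent.TitsTwoTrans.SymEight

set_option autoImplicit false

namespace Cfsg.Agent.TitsTwoTrans

open MulAction

variable {G : Type*} [Group G] {Ω : Type*} [MulAction G Ω]

/-- Some orbit of a two-group is small when a power of two does not divide the degree. -/
theorem exists_small_orbit [Finite Ω] {P : Subgroup G} (hP : IsPGroup 2 P) {a : ℕ}
    (ha : ¬ 2 ^ (a + 1) ∣ Nat.card Ω) : ∃ x : Ω, Nat.card (orbit P x) ≤ 2 ^ a := by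
  classical
  have : Fact (Nat.Prime 2) := ⟨Nat.prime_two⟩
  by_contra hcon
  push Not at hcon
  apply ha
  have := Fintype.ofFinite Ω
  rw [Nat.card_congr (selfEquivSigmaOrbits P Ω), Nat.card_sigma]
  refine Finset.dvd_sum fun q _ => ?_
  obtain ⟨b, hb⟩ := hP.card_orbit q.out
  have := hcon q.out
  rw [hb] at this ⊢
  exact pow_dvd_pow 2 (Nat.pow_lt_pow_iff_right one_lt_two |>.mp this)

/-- The fifth lower central term of a two-group fixes a point with a small orbit. -/
theorem lcs_fix [Finite G] [Finite Ω] {P : Subgroup G} (hP : IsPGroup 2 P) {x : Ω}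
    (hx : Nat.card (orbit P x) ≤ 8) {g : G} (hg : g ∈ P.lowerCentralSeries 4) : g • x = x := by
  classical
  have := Fintype.ofFinite Ω
  obtain ⟨emb⟩ : Nonempty (orbit P x ↪ Fin 8) := Function.Embedding.nonempty_of_card_le (by
    rw [Fintype.card_fin, ← Nat.card_eq_fintype_card]; exact hx)
  let φ : P →* Equiv.Perm (Fin 8) :=
    (Equiv.Perm.viaEmbeddingHom emb).comp (MulAction.toPermHom P (orbit P x))
  have hbot : ((⊤ : Subgroup P).lowerCentralSeries 4).map φ = ⊥ := by
    rw [Subgroup.map_lowerCentralSeries, ← MonoidHom.range_eq_map]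
    exact lcs_two_group ((hP.of_surjective φ.rangeRestrict φ.rangeRestrict_surjective))
  rw [← Subgroup.top_subtype_lowerCentralSeries] at hg
  obtain ⟨p, hp, rfl⟩ := hg
  have h1 : φ p = 1 := Subgroup.mem_bot.mp (hbot ▸ Subgroup.mem_map_of_mem φ hp)
  have h2 : MulAction.toPermHom P (orbit P x) p = 1 :=
    Equiv.Perm.viaEmbeddingHom_injective emb (by rw [map_one]; exact h1)
  have h3 := congrArg (fun σ : Equiv.Perm (orbit P x) => ((σ ⟨x, mem_orbit_self x⟩ : orbit P x) : Ω)) h2
  exact h3

/-- A group with a single short prime cycle is highly transitive. -/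
theorem dvd_of_prime_cycle [Finite G] [Finite Ω] [FaithfulSMul G Ω] [IsMultiplyPretransitive G Ω 2]
    {p m : ℕ} (hp : p.Prime) (hpG : p ∣ Nat.card G) (hn : Nat.card Ω = p + (m + 1)) (hlt : Nat.card Ω < 2 * p)
    (hm : m + 2 < Nat.card Ω) :
    (Nat.card Ω).descFactorial (m + 2) ∣ Nat.card G := by
  classical
  have := Fintype.ofFinite Ω
  have : Fact p.Prime := ⟨hp⟩
  obtain ⟨g, hg⟩ := exists_prime_orderOf_dvd_card' p hpG
  set σ : Equiv.Perm Ω := toPermHom G Ω g
  have hσ : orderOf σ = p := by rw [orderOf_injective _ MulAction.toPerm_injective g, hg]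
  obtain ⟨k, hk⟩ := Equiv.Perm.cycleType_prime_order (hσ ▸ hp)
  have hsum := σ.sum_cycleType
  have hle : σ.support.card ≤ Fintype.card Ω := Finset.card_le_univ _
  rw [hk, Multiset.sum_replicate, hσ, smul_eq_mul] at hsum
  rw [← Nat.card_eq_fintype_card] at hle
  have hk0 : k = 0 := by
    by_contra h
    have : 2 * p ≤ (k + 1) * p := Nat.mul_le_mul_right p (by omega)
    omega
  subst hk0
  rw [zero_add, one_mul] at hsum
  have hcyc : σ.IsCycle := Equiv.Perm.card_cycleType_eq_one.mp (by rw [hk]; simp)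
  set s : Set Ω := (↑σ.support : Set Ω)ᶜ
  have hs : s.ncard = m + 1 := by
    rw [Set.ncard_compl, Set.ncard_coe_finset, ← hsum, hn]; omega
  have hgs : g ∈ fixingSubgroup G s := by
    rw [mem_fixingSubgroup_iff]
    intro y hy
    simpa [s, σ] using hy
  have hpre : IsPretransitive (fixingSubgroup G s) (SubMulAction.ofFixingSubgroup G s) := by
    refine ⟨fun y z => ?_⟩
    have hy : σ y.1 ≠ y.1 := by
      have : y.1 ∉ s := y.2
      simpa [s] using this
    have hz : σ z.1 ≠ z.1 := by
      have : z.1 ∉ s := z.2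
      simpa [s] using this
    obtain ⟨i, hi⟩ := hcyc.exists_zpow_eq hy hz
    refine ⟨⟨g ^ i, zpow_mem hgs i⟩, Subtype.ext ?_⟩
    rw [← map_zpow] at hi
    exact hi
  have hcard : Nat.card (SubMulAction.ofFixingSubgroup G s) = p := by
    show Nat.card ↥(sᶜ) = p
    rw [Nat.card_coe_set_eq, show sᶜ = (↑σ.support : Set Ω) from compl_compl _, Set.ncard_coe_finset, ← hsum]
  have hprim : IsPreprimitive (fixingSubgroup G s) (SubMulAction.ofFixingSubgroup G s) :=
    IsPreprimitive.of_prime_card (by rw [hcard]; exact hp)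
  have hG : IsPreprimitive G Ω := isPreprimitive_of_is_two_pretransitive inferInstance
  have hmp := hG.isMultiplyPreprimitive hs hm hprim
  obtain ⟨t, -, ht⟩ := Set.exists_subset_card_eq (s := (Set.univ : Set Ω)) (n := m + 2)
    (by rw [Set.ncard_univ]; omega)
  have hidx := IsMultiplyPretransitive.index_of_fixingSubgroup_eq (G := G) t (by rw [ht]; exact hmp.isMultiplyPretransitive)
  rw [ht] at hidx
  rw [Nat.descFactorial_eq_factorial_mul_choose, Nat.mul_comm, ← hidx]
  exact Subgroup.index_dvd_card _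

end Cfsg.Agent.TitsTwoTrans
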