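/-
The Tits group: bit tables for all forty-eight root matrices over two elements.
-/
import Cfsg.Agent.LeadWork.ReeInvolutions

set_option autoImplicit false
set_option maxRecDepth 100000

namespace Cfsg.Agent.TitsTwoTrans

open Cfsg.Lie Cfsg.Agent.Chev Cfsg.Agent.Chev.Ree4 Cfsg.Agent.LeadWork.ReeInvolutions
open Cfsg.Agent.LeadWork.E6Fold (code code_lt exists_code code_injective bv ev ev_nil ev_cons colL ev_colL)
open scoped Matrix

local notation "K₂" => ZMod 2

/-- A tree of column tables. -/
inductive RT where
  | leaf (v : List (ℕ × ℕ))
  | node (a b : RT)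

/-- Lookup by the bits of the index, least significant first. -/
noncomputable def RT.get : RT → ℕ → List (ℕ × ℕ) := fun t =>
  RT.rec (motive := fun _ => ℕ → List (ℕ × ℕ)) (fun v _ => v)
    (fun _ _ fa fb k => bif Nat.beq (Nat.mod k 2) 0 then fa (Nat.div k 2) else fb (Nat.div k 2)) t

/-- The non-trivial columns of all the root matrices modulo two. -/
def rowsA : RT := (.node (.node (.node (.node (.node (.node (.leaf [(3, 16), (28, 32), (30, 64), (33, 128), (35, 256), (36, 512), (40, 2048), (42, 4096), (43, 8192), (44, 32768), (46, 524288), (47, 1048576), (48, 4194304), (49, 33554432), (50, 134217728), (51, 21)]) (.leaf [(2, 68719476736), (4, 512), (5, 1024), (11, 131072), (12, 262144), (19, 68719476746), (20, 536870912), (21, 1073741824), (22, 4294967296), (23, 8589934592), (25, 17179869184), (26, 34359738368), (37, 8796093022208), (38, 17592186044416), (45, 1125899906842624), (46, 2251799813685248)])) (.node (.leaf [(2, 1048576), (3, 1048576), (8, 16), (10, 64), (16, 2048), (18, 8192), (26, 524288), (28, 2097152), (31, 4194304), (33, 16777216), (34, 134217728), (35, 1048590), (36, 536870912),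 (42, 137438953472), (44, 549755813888), (49, 35184372088832), (51, 140737488355328)]) (.leaf []))) (.node (.node (.leaf [(1, 4096), (2, 4096), (17, 128), (24, 2048), (29, 8208), (30, 16416), (32, 32768), (33, 65536), (36, 262400), (39, 4194304), (40, 8388608), (43, 4097), (44, 2147483648), (47, 137439477760), (48, 274877906944), (50, 2199056809984), (51, 4398113619968)]) (.leaf [(0, 17592186044416), (1, 17592186044416), (4, 17179901952), (5, 34359803904), (6, 68719607808), (7, 262144), (11, 17592186044419), (12, 2147483648), (13, 4294967296), (14, 8589934592), (19, 563224831328256), (20, 1126449662656512), (21, 2252899325313024), (22, 2199023255552), (23, 4398046511104), (24, 8796093022208), (37, 281474976710656)])) (.node (.leaf [(2, 268435456), (4, 32), (9, 1024), (13, 16384), (15, 65536), (20, 2097152), (22, 8388608), (25, 67108864), (27, 268435464), (29, 1073741824), (32, 8589934592), (34, 34359738368), (39, 1099511627776), (41, 4398046511104), (45, 70368744177664), (50, 2251799813685248)]) (.leaf [])))) (.node (.node (.node (.leaf [(2, 256), (20, 16), (21, 32), (24, 128), (29, 512), (30,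 1024), (37, 4096), (39, 32768), (40, 65536), (43, 262144), (45, 33554432), (46, 67108864), (47, 267), (48, 2147483648), (50, 17179869184), (51, 34359738368)]) (.leaf [(0, 1099511627776), (1, 1099511627776), (3, 1099511627776), (4, 2099200), (7, 16384), (8, 268500992), (9, 1073872896), (12, 8388608), (13, 16777216), (15, 1099511627779), (18, 8589934592), (22, 137438953472), (25, 70643622084608), (27, 141287244169216), (31, 4398046511104), (32, 8796093022208), (34, 2269391999729664), (41, 281474976710656)])) (.node (.leaf [(0, 16777216), (2, 16777216), (8, 192), (12, 2048), (15, 8192), (16, 16384), (18, 131072), (25, 5242880), (26, 10485760), (31, 16777218), (34, 4831838208), (35, 9663676416), (38, 137438953472), (41, 549755813888), (42, 1099511627776), (44, 8796093022208), (49, 422212465065984)]) (.leaf []))) (.node (.node (.leaf [(0, 65536), (1, 65536), (2, 65536), (3, 65536), (13, 128), (20, 2080), (22, 4096), (24, 16384), (27, 33024), (29, 132096), (32, 262144), (37, 8388608), (39, 65539), (41, 2147483648), (43, 8589934592), (45, 274945015808), (47, 1099780063232), (48, 4398046511104), (50,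 17626545782784)]) (.leaf [(0, 281474976710656), (4, 35184376283136), (5, 70368752566272), (6, 140737505132544), (7, 281474976710658), (8, 562952100904960), (9, 1125904201809920), (10, 2251808403619840), (11, 137438953472), (12, 274877906944), (13, 549755813888), (14, 1099511627776), (15, 2199023255552), (16, 4398046511104), (17, 8796093022208), (18, 17592186044416)])) (.node (.leaf [(0, 4294967296), (2, 4294967296), (3, 4294967296), (5, 640), (11, 8192), (12, 32768), (14, 131072), (16, 262144), (19, 138412032), (21, 553648128), (23, 4294967298), (26, 19327352832), (28, 77309411328), (37, 549755813888), (38, 2199023255552), (40, 8796093022208), (42, 17592186044416), (46, 1407374883553280)]) (.leaf []))))) (.node (.node (.node (.node (.leaf [(2, 64), (25, 16), (26, 32), (31, 128), (34, 512), (35, 1024), (38, 2048), (41, 8192), (42, 16384), (44, 131072), (45, 1048576), (46, 2097152), (48, 16777216), (49, 73), (50, 536870912), (51, 1073741824)]) (.leaf [(0, 274877906944), (1, 274877906944), (2, 274877906944), (6, 526336), (7, 4096), (9, 33587200), (10, 67174400), (13, 4194304), (14, 8388608), (17,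 274877906947), (18, 2147483648), (24, 137438953472), (29, 35734127902720), (30, 71468255805440), (32, 2199023255552), (33, 4398046511104), (36, 580542139465728), (43, 281474976710656)])) (.node (.leaf [(0, 4194304), (3, 4194304), (10, 144), (14, 2048), (16, 4096), (17, 8192), (18, 32768), (28, 8912896), (30, 17825792), (33, 4194306), (35, 2181038080), (36, 4429185024), (40, 137438953472), (42, 274877906944), (43, 549755813888), (44, 2199023255552), (51, 316659348799488)]) (.leaf []))) (.node (.node (.leaf [(1, 16384), (3, 16384), (15, 128), (22, 2048), (25, 4128), (27, 8256), (31, 65536), (32, 131072), (34, 263168), (38, 8388608), (39, 16777216), (41, 16385), (44, 8589934592), (45, 137441050624), (48, 1099511627776), (49, 4398314946560), (50, 8797166764032)]) (.leaf [(2, 70368744177664), (3, 70368744177664), (4, 524288), (6, 2097152), (7, 8388608), (8, 67108864), (9, 70368744177679), (10, 268435456), (13, 137438953472), (15, 274877906944), (17, 1099511627776), (18, 4398046511104), (27, 35184372088832), (29, 140737488355328), (32, 281474976710656), (34, 562949953421312), (36, 2251799813685248)]))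 (.node (.leaf [(2, 1073741824), (3, 1073741824), (4, 64), (8, 1024), (12, 16384), (15, 131072), (19, 2097152), (22, 16777216), (25, 1073741836), (26, 268435456), (27, 536870912), (31, 8589934592), (34, 68719476736), (38, 1099511627776), (41, 8796093022208), (45, 140737488355328), (49, 2251799813685248)]) (.leaf [])))) (.node (.node (.node (.leaf [(3, 1024), (19, 32), (20, 64), (22, 128), (25, 256), (27, 512), (37, 16384), (38, 65536), (39, 131072), (41, 262144), (45, 1031), (46, 268435456), (47, 1073741824), (48, 8589934592), (49, 34359738368), (50, 68719476736)]) (.leaf [(1, 4398046511104), (2, 4398046511104), (3, 4398046511104), (4, 67112960), (6, 268451840), (7, 65536), (9, 34360000512), (11, 8388608), (13, 4398046511105), (15, 2147483648), (17, 8589934592), (20, 70506183131136), (22, 274877906944), (24, 1099511627776), (27, 565148976676864), (29, 2260595906707456), (32, 17592186044416), (39, 281474976710656)])) (.node (.leaf [(3, 67108864), (6, 32), (9, 256), (13, 4096), (17, 65536), (20, 524288), (24, 8388608), (27, 33554432), (29, 67108868), (30, 268435456), (32, 2147483648), (36, 34359738368),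 (39, 274877906944), (43, 4398046511104), (47, 70368744177664), (50, 562949953421312)]) (.leaf []))) (.node (.node (.leaf [(1, 262144), (11, 128), (19, 4352), (20, 8704), (21, 17408), (22, 32768), (23, 65536), (24, 131072), (37, 262145), (38, 2147483648), (39, 4294967296), (40, 8589934592), (45, 2216203124736), (46, 4432406249472), (47, 8864812498944), (48, 17592186044416)]) (.leaf [(2, 1125899906842624), (3, 1125899906842624), (4, 134217728), (5, 1125899906842637), (6, 536870912), (7, 4294967296), (8, 17179869184), (10, 68719476736), (11, 549755813888), (12, 2199023255552), (14, 8796093022208), (16, 17592186044416), (19, 35184372088832), (21, 140737488355328), (23, 281474976710656), (26, 562949953421312), (28, 2251799813685248)])) (.node (.leaf [(3, 17179869184), (5, 256), (6, 512), (11, 32768), (14, 262144), (19, 33554432), (20, 134217728), (21, 17179869190), (23, 2147483648), (24, 4294967296), (28, 34359738368), (30, 68719476736), (37, 2199023255552), (40, 17592186044416), (46, 562949953421312), (47, 1125899906842624)]) (.leaf [])))))) (.node (.node (.node (.node (.node (.leaf [(2, 32), (3,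 32), (27, 16), (29, 64), (32, 128), (34, 256), (36, 1024), (39, 2048), (41, 4096), (43, 16384), (44, 65536), (45, 524288), (47, 2097152), (48, 8388608), (49, 67108864), (50, 45), (51, 268435456)]) (.leaf [(1, 137438953472), (7, 2048), (8, 528384), (9, 1056768), (10, 2113536), (15, 4194304), (16, 8388608), (17, 16777216), (18, 137438953473), (31, 274877906944), (32, 549755813888), (33, 1099511627776), (34, 37383395344384), (35, 74766790688768), (36, 149533581377536), (44, 281474976710656)])) (.node (.leaf [(3, 2097152), (8, 32), (9, 64), (15, 2048), (18, 16384), (25, 524288), (27, 1048576), (31, 8388608), (32, 16777216), (34, 2097158), (35, 268435456), (36, 1073741824), (41, 137438953472), (44, 1099511627776), (49, 70368744177664), (50, 140737488355328)]) (.leaf []))) (.node (.node (.leaf [(1, 8192), (2, 8192), (3, 8192), (16, 128), (23, 2048), (26, 4112), (28, 16448), (31, 32768), (33, 131072), (35, 262656), (38, 4194304), (40, 16777216), (42, 8193), (44, 4294967296), (46, 137440002048), (48, 549755813888), (49, 2199157473280), (51, 8796629893120)]) (.leaf [(3, 35184372088832), (5, 524288),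 (6, 1048576), (7, 4194304), (8, 33554432), (9, 134217728), (10, 35184372088839), (14, 137438953472), (16, 274877906944), (17, 549755813888), (18, 2199023255552), (28, 70368744177664), (30, 140737488355328), (33, 281474976710656), (35, 562949953421312), (36, 1125899906842624)])) (.node (.leaf [(3, 536870912), (5, 64), (8, 512), (12, 8192), (16, 131072), (19, 1048576), (23, 16777216), (25, 134217728), (26, 536870916), (28, 1073741824), (31, 4294967296), (35, 68719476736), (38, 549755813888), (42, 8796093022208), (46, 140737488355328), (49, 1125899906842624)]) (.leaf [])))) (.node (.node (.node (.leaf [(2, 512), (3, 512), (19, 16), (21, 64), (23, 128), (26, 256), (28, 1024), (37, 8192), (38, 32768), (40, 131072), (42, 262144), (45, 134217728), (46, 527), (47, 536870912), (48, 4294967296), (49, 17179869184), (51, 68719476736)]) (.leaf [(1, 2199023255552), (3, 2199023255552), (5, 33558528), (6, 134225920), (7, 32768), (10, 17180131328), (11, 4194304), (14, 2199023255553), (16, 2147483648), (17, 4294967296), (21, 35321811042304), (23, 274877906944), (24, 549755813888), (28, 567347999932416), (30,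 1134695999864832), (33, 17592186044416), (40, 281474976710656)])) (.node (.leaf [(2, 33554432), (3, 33554432), (6, 16), (10, 256), (14, 4096), (17, 32768), (21, 524288), (24, 4194304), (28, 67108864), (29, 134217728), (30, 33554444), (33, 2147483648), (36, 17179869184), (40, 274877906944), (43, 2199023255552), (47, 35184372088832), (51, 562949953421312)]) (.leaf []))) (.node (.node (.leaf [(0, 131072), (1, 131072), (2, 131072), (12, 128), (19, 2112), (22, 8192), (23, 16384), (25, 33280), (26, 66560), (31, 262144), (37, 16777216), (38, 131075), (41, 4294967296), (42, 8589934592), (45, 550292684800), (46, 1100585369600), (48, 8796093022208), (49, 17660905521152)]) (.leaf [(2, 562949953421312), (4, 33554432), (5, 67108864), (6, 562949953421321), (7, 2147483648), (9, 17179869184), (10, 34359738368), (11, 274877906944), (13, 2199023255552), (14, 4398046511104), (17, 17592186044416), (20, 35184372088832), (21, 70368744177664), (24, 281474976710656), (29, 1125899906842624), (30, 2251799813685248)])) (.node (.leaf [(0, 8589934592), (3, 8589934592), (4, 1152), (11, 16384), (12, 65536), (13, 131072),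 (15, 262144), (19, 276824064), (20, 1090519040), (22, 8589934594), (25, 36507222016), (27, 73014444032), (37, 1099511627776), (38, 4398046511104), (39, 8796093022208), (41, 17592186044416), (45, 2533274790395904)]) (.leaf []))))) (.node (.node (.node (.node (.leaf [(0, 128), (37, 2048), (38, 4096), (39, 8192), (40, 16384), (41, 32768), (42, 65536), (43, 131072), (44, 262144), (45, 4194320), (46, 8388640), (47, 16777280), (48, 130), (49, 2147483904), (50, 4294967808), (51, 8589935616)]) (.leaf [(0, 549755813888), (1, 549755813888), (2, 549755813888), (3, 549755813888), (5, 1050624), (7, 8192), (8, 134250496), (10, 537001984), (12, 4194304), (14, 16777216), (16, 549755813891), (18, 4294967296), (23, 137438953472), (26, 35459249995776), (28, 141836999983104), (31, 2199023255552), (33, 8796093022208), (35, 1143492092887040), (42, 281474976710656)])) (.node (.leaf [(0, 8388608), (2, 8388608), (3, 8388608), (9, 160), (13, 2048), (15, 4096), (17, 16384), (18, 65536), (27, 4718592), (29, 18874368), (32, 8388610), (34, 2214592512), (36, 8858370048), (39, 137438953472), (41, 274877906944), (43, 1099511627776),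 (44, 4398046511104), (50, 351843720888320)]) (.leaf []))) (.node (.node (.leaf [(0, 32768), (1, 32768), (3, 32768), (14, 128), (21, 2064), (23, 4096), (24, 8192), (28, 65792), (30, 131584), (33, 262144), (37, 4194304), (40, 32771), (42, 2147483648), (43, 4294967296), (46, 274911461376), (47, 549890031616), (48, 2199023255552), (51, 17609365913600)]) (.leaf [(2, 140737488355328), (4, 1048576), (5, 2097152), (7, 16777216), (8, 140737488355339), (9, 536870912), (10, 1073741824), (12, 137438953472), (15, 549755813888), (16, 1099511627776), (18, 8796093022208), (25, 35184372088832), (26, 70368744177664), (31, 281474976710656), (34, 1125899906842624), (35, 2251799813685248)])) (.node (.leaf [(0, 2147483648), (2, 2147483648), (6, 384), (11, 4096), (13, 32768), (14, 65536), (17, 262144), (20, 37748736), (21, 75497472), (24, 2147483650), (29, 21474836480), (30, 42949672960), (37, 274877906944), (39, 2199023255552), (40, 4398046511104), (43, 17592186044416), (47, 844424930131968)]) (.leaf [])))) (.node (.node (.node (.leaf [(0, 2048), (1, 2048), (18, 128), (31, 4096), (32, 8192), (33, 16384), (34, 32784),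 (35, 65568), (36, 131136), (41, 4194304), (42, 8388608), (43, 16777216), (44, 2051), (48, 137438953472), (49, 274878431232), (50, 549756862464), (51, 1099513724928)]) (.leaf [(1, 8796093022208), (2, 8796093022208), (4, 536879104), (5, 1073758208), (7, 131072), (8, 68719738880), (11, 16777216), (12, 8796093022209), (15, 4294967296), (16, 8589934592), (19, 140874927308800), (22, 549755813888), (23, 1099511627776), (25, 1128098930098176), (26, 2256197860196352), (31, 17592186044416), (38, 281474976710656)])) (.node (.leaf [(2, 134217728), (5, 16), (10, 512), (14, 8192), (16, 32768), (21, 1048576), (23, 4194304), (26, 33554432), (28, 134217736), (30, 536870912), (33, 4294967296), (35, 17179869184), (40, 549755813888), (42, 2199023255552), (46, 35184372088832), (51, 1125899906842624)]) (.leaf []))) (.node (.node (.leaf [(2, 524288), (9, 16), (10, 32), (17, 2048), (18, 4096), (29, 1048576), (30, 2097152), (32, 4194304), (33, 8388608), (34, 33554432), (35, 67108864), (36, 524298), (43, 137438953472), (44, 274877906944), (50, 35184372088832), (51, 70368744177664)]) (.leaf [(3, 2251799813685248), (4,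 2251799813685253), (5, 268435456), (6, 1073741824), (7, 8589934592), (8, 34359738368), (9, 68719476736), (11, 1099511627776), (12, 4398046511104), (13, 8796093022208), (15, 17592186044416), (19, 70368744177664), (20, 140737488355328), (22, 281474976710656), (25, 562949953421312), (27, 1125899906842624)])) (.node (.leaf [(2, 34359738368), (3, 34359738368), (4, 256), (6, 1024), (11, 65536), (13, 262144), (19, 67108864), (20, 34359738382), (21, 268435456), (22, 2147483648), (24, 8589934592), (27, 17179869184), (29, 68719476736), (37, 4398046511104), (39, 17592186044416), (45, 562949953421312), (47, 2251799813685248)]) (.leaf [])))))))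

/-- The image of a bit vector under any root matrix. -/
noncomputable def stepA (r m : ℕ) : ℕ :=
  Nat.xor m (List.rec (motive := fun _ => ℕ) 0
    (fun p _ ih => bif Nat.beq (Nat.land (Nat.shiftRight m p.1) 1) 1 then Nat.xor p.2 ih else ih) (rowsA.get r))

/-- The image of a bit vector under a word in all roots. -/
noncomputable def runA : List ℕ → ℕ → ℕ := fun rs m =>
  List.rec (motive := fun _ => ℕ) m (fun r _ ih => stepA r ih) rs

theorem runA_nil (m : ℕ) : runA [] m = m := rfl

theorem runA_cons (r : ℕ) (rs : List ℕ) (m : ℕ) : runA (r :: rs) m = stepA r (runA rs m) := rfl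

theorem tableA_ok : ∀ r < 48, ∀ c < 52,
    stepA r (2 ^ c) = maskOf (colL chevF4 r c) ∧ stepA r (2 ^ c) < 2 ^ 52 := by decide +kernel

theorem beq_bit (m p : ℕ) : Nat.beq (Nat.land (Nat.shiftRight m p) 1) 1 = m.testBit p := by
  have h : Nat.land (Nat.shiftRight m p) 1 = m / 2 ^ p % 2 := by
    show (m >>> p) &&& 1 = _
    rw [Nat.and_one_is_mod, Nat.shiftRight_eq_div_pow]
  rw [h, Nat.testBit_eq_decide_div_mod_eq]
  rcases Nat.mod_two_eq_zero_or_one (m / 2 ^ p) with h | h <;> rw [h] <;> rfl

theorem stepA_eq (r m : ℕ) : stepA r m =
    Nat.xor m ((rowsA.get r).foldr (fun p acc => Nat.xor (if m.testBit p.1 then p.2 else 0) acc) 0) := by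
  unfold stepA
  congr 1
  show List.rec (motive := fun _ => ℕ) 0
      (fun p _ ih => bif Nat.beq (Nat.land (Nat.shiftRight m p.1) 1) 1 then p.2 ^^^ ih else ih) (rowsA.get r) =
    List.foldr (fun (p : ℕ × ℕ) acc => (if m.testBit p.1 then p.2 else 0) ^^^ acc) 0 _
  induction rowsA.get r with
  | nil => rfl
  | cons p l ih =>
    show (bif Nat.beq (Nat.land (Nat.shiftRight m p.1) 1) 1 then _ else _) = _
    rw [beq_bit, List.foldr_cons, ← ih]
    cases h : m.testBit p.1 <;> simp

theorem stepA_xor (r a b : ℕ) : stepA r (Nat.xor a b) = Nat.xor (stepA r a) (stepA r b) := by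
  rw [stepA_eq, stepA_eq, stepA_eq]
  have e : (fun (p : ℕ × ℕ) acc => Nat.xor (if (Nat.xor a b).testBit p.1 then p.2 else 0) acc) =
      fun p acc => Nat.xor (Nat.xor (if a.testBit p.1 then p.2 else 0) (if b.testBit p.1 then p.2 else 0)) acc := by
    funext p acc
    congr 1
    show (if (a ^^^ b).testBit p.1 then p.2 else 0) =
      (if a.testBit p.1 then p.2 else 0) ^^^ (if b.testBit p.1 then p.2 else 0)
    rw [Nat.testBit_xor]
    cases a.testBit p.1 <;> cases b.testBit p.1 <;> simp
  rw [e, foldr_xor_map]
  show (a ^^^ b) ^^^ (_ ^^^ _) = (a ^^^ _) ^^^ (b ^^^ _)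
  ac_rfl

theorem stepA_zero (r : ℕ) : stepA r 0 = 0 := by
  rw [stepA_eq]
  show 0 ^^^ _ = 0
  rw [Nat.zero_xor]
  induction rowsA.get r with
  | nil => rfl
  | cons p l ih => rw [List.foldr_cons, ih]; simp

theorem stepA_ok {r : ℕ} (hr : r < 48) : ∀ m, m < 2 ^ 52 →
    chevF4.x K₂ r 1 *ᵥ vec m = vec (stepA r m) ∧ stepA r m < 2 ^ 52 := by
  have key : ∀ k ≤ 52, ∀ m, m < 2 ^ k → chevF4.x K₂ r 1 *ᵥ vec m = vec (stepA r m) ∧ stepA r m < 2 ^ 52 := by
    intro k
    induction k with
    | zero =>
      intro _ m hm
      rw [pow_zero, Nat.lt_one_iff] at hm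
      subst hm
      rw [vec_zero, Matrix.mulVec_zero, stepA_zero, vec_zero]
      exact ⟨rfl, by norm_num⟩
    | succ k ih =>
      intro hk m hm
      by_cases hbit : m.testBit k
      · have e : m = Nat.xor (2 ^ k) (m - 2 ^ k) := by
          show m = 2 ^ k ^^^ (m - 2 ^ k)
          have h1 : 2 ^ k ≤ m := Nat.ge_two_pow_of_testBit hbit
          have h2 : m - 2 ^ k < 2 ^ k := by rw [pow_succ] at hm; omega
          apply Nat.eq_of_testBit_eq
          intro i
          have hmi : m.testBit i = (2 ^ k + (m - 2 ^ k)).testBit i := by rw [Nat.add_sub_cancel' h1]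
          rw [Nat.testBit_xor, Nat.testBit_two_pow, hmi]
          rcases lt_trichotomy i k with h | h | h
          · rw [Nat.testBit_two_pow_add_gt h]; simp [Nat.ne_of_gt h]
          · subst h; rw [Nat.testBit_two_pow_add_eq]; simp [Nat.testBit_lt_two_pow h2]
          · rw [Nat.testBit_lt_two_pow (lt_of_lt_of_le (by rw [pow_succ]; omega : 2 ^ k + (m - 2 ^ k) < 2 ^ (k + 1))
              (Nat.pow_le_pow_right two_pos h)), Nat.testBit_lt_two_pow (lt_of_lt_of_le h2
              (Nat.pow_le_pow_right two_pos h.le))]
            simp [Nat.ne_of_lt h]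
        obtain ⟨i1, i2⟩ := ih (by omega) (m - 2 ^ k) (by rw [pow_succ] at hm; omega)
        obtain ⟨c1, c2⟩ := tableA_ok r hr k (by omega)
        rw [e, stepA_xor, vec_xor, vec_xor, Matrix.mulVec_add, i1, vec_pow,
          ev_colL cF.{0} (show r < chevF4.nroots by rw [dims.2]; exact hr)
            (show k < chevF4.rank + chevF4.nroots by rw [dims.1, dims.2]; omega) (1 : K₂), ev_mask, c1]
        exact ⟨rfl, Nat.xor_lt_two_pow (c1 ▸ c2) i2⟩
      · refine ih (by omega) m ?_
        by_contra hge
        push Not at hge
        have h2 : m - 2 ^ k < 2 ^ k := by rw [pow_succ] at hm; omega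
        apply hbit
        rw [show m = 2 ^ k + (m - 2 ^ k) by omega, Nat.testBit_two_pow_add_eq, Nat.testBit_lt_two_pow h2]
        rfl
  exact fun m hm => key 52 le_rfl m hm

theorem wordA_vec : ∀ {rs : List ℕ}, (∀ r ∈ rs, r < 48) → ∀ m < 2 ^ 52,
    (word rs).1 *ᵥ vec m = vec (runA rs m) ∧ runA rs m < 2 ^ 52 := by
  intro rs
  induction rs with
  | nil => intro _ m hm; exact ⟨by simp [word_nil, runA_nil], hm⟩
  | cons r rs ih =>
    intro h m hm
    rw [List.forall_mem_cons] at h
    obtain ⟨i1, i2⟩ := ih h.2 m hm
    obtain ⟨s1, s2⟩ := stepA_ok h.1 _ i2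
    rw [runA_cons]
    refine ⟨?_, s2⟩
    rw [word_cons, Units.val_mul, ← Matrix.mulVec_mulVec, i1, Cert.coe_xu, s1]

/-- Two words with the same action on the basis are equal. -/
theorem wordA_eq {a b : List ℕ} (ha : ∀ r ∈ a, r < 48) (hb : ∀ r ∈ b, r < 48)
    (h : ∀ c < 52, runA a (2 ^ c) = runA b (2 ^ c)) : word a = word b := by
  refine Units.ext (Matrix.ext_of_mulVec_single fun k => ?_)
  have e : (Pi.single k 1 : chevF4.Idx → K₂) = vec (2 ^ code chevF4 k) := by
    rw [vec_pow]
    funext x
    by_cases h : x = k
    · subst h; simp [bv]
    · simp [bv, h, code_injective.ne h]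
  have hc : 2 ^ code chevF4 k < 2 ^ 52 := Nat.pow_lt_pow_right one_lt_two (code52 k)
  rw [e, (wordA_vec ha _ hc).1, (wordA_vec hb _ hc).1, h _ (code52 k)]

/-- Two words with different action on some basis vector differ. -/
theorem wordA_ne {a b : List ℕ} (ha : ∀ r ∈ a, r < 48) (hb : ∀ r ∈ b, r < 48) {c : ℕ} (hc : c < 52)
    (h : runA a (2 ^ c) ≠ runA b (2 ^ c)) : word a ≠ word b := by
  intro e
  apply h
  have hlt : 2 ^ c < 2 ^ 52 := Nat.pow_lt_pow_right one_lt_two hc
  obtain ⟨a1, a2⟩ := wordA_vec ha _ hlt
  obtain ⟨b1, b2⟩ := wordA_vec hb _ hlt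
  have hv : vec (runA a (2 ^ c)) = vec (runA b (2 ^ c)) := by rw [← a1, ← b1, e]
  refine Nat.eq_of_testBit_eq fun i => ?_
  by_cases hi : i < 52
  · exact testBit_of_vec hv hi
  · rw [Nat.testBit_lt_two_pow (lt_of_lt_of_le a2 (Nat.pow_le_pow_right two_pos (by omega))),
      Nat.testBit_lt_two_pow (lt_of_lt_of_le b2 (Nat.pow_le_pow_right two_pos (by omega)))]

end Cfsg.Agent.TitsTwoTrans
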