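/-
The Tits group: generation certificates from a normal subgroup of the Sylow subgroup and one Weyl element.
-/
import Cfsg.Agent.TitsTwoTrans.Table
import Cfsg.Agent.LeadWork.TitsSimple
import Cfsg.Agent.Forms.CharPOvergroupTits

set_option autoImplicit false
set_option maxRecDepth 100000

namespace Cfsg.Agent.TitsTwoTrans

open Cfsg.Lie Cfsg.Agent.Chev Cfsg.Agent.Chev.Ree4 Cfsg.Agent.LeadWork.ReeInvolutions
  Cfsg.Agent.LeadWork.TitsIndex Cfsg.Agent.Forms.CharP
open scoped commutatorElement

local notation "K₂" => ZMod 2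

attribute [local irreducible] word

/-- The letters lying in the derived group. -/
def evenIdx : List ℕ := [1, 3, 6, 7, 8, 9, 10, 11]

/-- The letters of the fifth term of the lower central series. -/
def fiveIdx : List ℕ := [8, 9, 10, 11]

/-- Letters and their images under a Weyl element, for the derived letters. -/
def glEven : List (List (List ℕ)) := [
  [[33, 24], [28, 30], [37, 32], [36, 42], [38, 43], [39, 45], [40, 46], [44, 47], [33, 24], [28, 30], [37, 32], [36, 42], [38, 43], [39, 45], [40, 46], [44, 47]],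
  [[33, 24], [28, 30], [37, 32], [36, 42], [38, 43], [39, 45], [40, 46], [44, 47], [14, 23], [36, 42], [38, 43], [28, 30], [37, 32], [39, 45], [44, 47], [40, 46]],
  [[33, 24], [28, 30], [37, 32], [36, 42], [38, 43], [39, 45], [40, 46], [44, 47], [37, 32], [19, 17], [33, 24], [40, 46], [39, 45], [38, 43], [36, 42], [44, 47]],
  [[33, 24], [28, 30], [37, 32], [36, 42], [38, 43], [39, 45], [40, 46], [44, 47], [10, 15], [40, 46], [39, 45], [19, 17], [33, 24], [38, 43], [44, 47], [36, 42]],
  [[33, 24], [28, 30], [37, 32], [36, 42], [38, 43], [39, 45], [40, 46], [44, 47], [38, 43], [11, 5], [14, 23], [44, 47], [39, 45], [37, 32], [28, 30], [40, 46]],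
  [[33, 24], [28, 30], [37, 32], [36, 42], [38, 43], [39, 45], [40, 46], [44, 47], [9, 4], [44, 47], [39, 45], [11, 5], [14, 23], [37, 32], [40, 46], [28, 30]],
  [[33, 24], [28, 30], [37, 32], [36, 42], [38, 43], [39, 45], [40, 46], [44, 47], [39, 45], [7, 1], [10, 15], [44, 47], [38, 43], [33, 24], [19, 17], [36, 42]],
  [[33, 24], [28, 30], [37, 32], [36, 42], [38, 43], [39, 45], [40, 46], [44, 47], [8, 2], [44, 47], [38, 43], [7, 1], [10, 15], [33, 24], [36, 42], [19, 17]],
  [[33, 24], [28, 30], [37, 32], [36, 42], [38, 43], [39, 45], [40, 46], [44, 47], [39, 45], [3, 0], [9, 4], [40, 46], [37, 32], [14, 23], [11, 5], [28, 30]],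
  [[33, 24], [28, 30], [37, 32], [36, 42], [38, 43], [39, 45], [40, 46], [44, 47], [8, 2], [40, 46], [37, 32], [3, 0], [9, 4], [14, 23], [28, 30], [11, 5]],
  [[33, 24], [28, 30], [37, 32], [36, 42], [38, 43], [39, 45], [40, 46], [44, 47], [38, 43], [3, 0], [8, 2], [36, 42], [33, 24], [10, 15], [7, 1], [19, 17]],
  [[33, 24], [28, 30], [37, 32], [36, 42], [38, 43], [39, 45], [40, 46], [44, 47], [9, 4], [36, 42], [33, 24], [3, 0], [8, 2], [10, 15], [19, 17], [7, 1]],
  [[33, 24], [28, 30], [37, 32], [36, 42], [38, 43], [39, 45], [40, 46], [44, 47], [37, 32], [7, 1], [8, 2], [28, 30], [14, 23], [9, 4], [3, 0], [11, 5]],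
  [[33, 24], [28, 30], [37, 32], [36, 42], [38, 43], [39, 45], [40, 46], [44, 47], [10, 15], [28, 30], [14, 23], [7, 1], [8, 2], [9, 4], [11, 5], [3, 0]],
  [[33, 24], [28, 30], [37, 32], [36, 42], [38, 43], [39, 45], [40, 46], [44, 47], [33, 24], [11, 5], [9, 4], [19, 17], [10, 15], [8, 2], [3, 0], [7, 1]],
  [[33, 24], [28, 30], [37, 32], [36, 42], [38, 43], [39, 45], [40, 46], [44, 47], [14, 23], [19, 17], [10, 15], [11, 5], [9, 4], [8, 2], [7, 1], [3, 0]]]

/-- Letters and their images under a Weyl element, for the fifth term. -/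
def glFive : List (List (List ℕ)) := [
  [[38, 43], [39, 45], [40, 46], [44, 47], [38, 43], [39, 45], [40, 46], [44, 47]],
  [[38, 43], [39, 45], [40, 46], [44, 47], [37, 32], [39, 45], [44, 47], [40, 46]],
  [[38, 43], [39, 45], [40, 46], [44, 47], [39, 45], [38, 43], [36, 42], [44, 47]],
  [[38, 43], [39, 45], [40, 46], [44, 47], [33, 24], [38, 43], [44, 47], [36, 42]],
  [[38, 43], [39, 45], [40, 46], [44, 47], [39, 45], [37, 32], [28, 30], [40, 46]],
  [[38, 43], [39, 45], [40, 46], [44, 47], [14, 23], [37, 32], [40, 46], [28, 30]],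
  [[38, 43], [39, 45], [40, 46], [44, 47], [38, 43], [33, 24], [19, 17], [36, 42]],
  [[38, 43], [39, 45], [40, 46], [44, 47], [10, 15], [33, 24], [36, 42], [19, 17]],
  [[38, 43], [39, 45], [40, 46], [44, 47], [37, 32], [14, 23], [11, 5], [28, 30]],
  [[38, 43], [39, 45], [40, 46], [44, 47], [9, 4], [14, 23], [28, 30], [11, 5]],
  [[38, 43], [39, 45], [40, 46], [44, 47], [33, 24], [10, 15], [7, 1], [19, 17]],
  [[38, 43], [39, 45], [40, 46], [44, 47], [8, 2], [10, 15], [19, 17], [7, 1]],
  [[38, 43], [39, 45], [40, 46], [44, 47], [14, 23], [9, 4], [3, 0], [11, 5]],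
  [[38, 43], [39, 45], [40, 46], [44, 47], [8, 2], [9, 4], [11, 5], [3, 0]],
  [[38, 43], [39, 45], [40, 46], [44, 47], [10, 15], [8, 2], [3, 0], [7, 1]],
  [[38, 43], [39, 45], [40, 46], [44, 47], [9, 4], [8, 2], [7, 1], [3, 0]]]

/-- Words of order thirteen. -/
def w13Even : List (List ℕ) := [[], [], [], [], [], [], [], [0, 2, 11], [0, 1, 9], [0, 1, 11], [0, 1, 9], [0, 1, 8], [0, 1, 13], [0, 1, 13], [0, 1, 10], [0, 1, 12]]

/-- Words of order three. -/
def w3Even : List (List ℕ) := [[], [], [], [], [], [], [], [], [], [0, 13], [2, 13], [2, 13], [0, 12], [0, 10], [2, 12], [0, 8]]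

/-- Words of order thirteen in the smaller generators. -/
def w13Five : List (List ℕ) := [[], [], [], [], [], [], [], [], [], [], [], [0, 2, 4], [0, 4, 6], [0, 2, 4], [0, 2, 5], [0, 2, 5]]

/-- First word of a commuting pair of order five. -/
def w5a : List (List ℕ) := [[], [], [], [], [], [], [], [], [], [], [], [], [], [0, 2, 4, 0, 5, 0, 2, 4, 0, 5], [0, 2, 6, 7, 0, 2, 6, 7], [0, 1, 4, 0, 6, 0, 1, 4, 0, 6]]

/-- Second word of a commuting pair of order five. -/
def w5b : List (List ℕ) := [[], [], [], [], [], [], [], [], [], [], [], [], [], [0, 4, 0, 5, 2, 0, 4, 0, 5, 2], [0, 4, 7, 2], [0, 4, 0, 1, 6, 0, 4, 0, 1, 6]]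

/-- Concatenation of generators. -/
def cat (gs : List (List ℕ)) (w : List ℕ) : List ℕ := (w.map fun i => gs.getD i []).flatten

/-- A repeated word. -/
def rep : ℕ → List ℕ → List ℕ
  | 0, _ => []
  | n + 1, w => w ++ rep n w

theorem word_rep (n : ℕ) (w : List ℕ) : word (rep n w) = word w ^ n := by
  induction n with
  | zero => rw [rep, word_nil, pow_zero]
  | succ n ih => rw [rep, word_append, ih, pow_succ']

/-- Agreement on all basis vectors. -/
noncomputable def agree (a b : List ℕ) : Bool :=
  allBelow (fun c => Nat.beq (runA a (Nat.pow 2 c)) (runA b (Nat.pow 2 c))) 52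

/-- All letters are roots. -/
def roots (a : List ℕ) : Bool := a.all fun r => decide (r < 48)

theorem of_agree {a b : List ℕ} (ha : roots a = true) (hb : roots b = true) (h : agree a b = true) :
    word a = word b := by
  simp only [roots, List.all_eq_true, decide_eq_true_eq] at ha hb
  exact wordA_eq ha hb fun c hc => Nat.eq_of_beq_eq_true ((allBelow_iff _ _).mp h c hc)

theorem of_not_agree {a b : List ℕ} (ha : roots a = true) (hb : roots b = true) (h : agree a b = false) :
    word a ≠ word b := by
  simp only [roots, List.all_eq_true, decide_eq_true_eq] at ha hb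
  obtain ⟨c, hc, hne⟩ : ∃ c < 52, runA a (2 ^ c) ≠ runA b (2 ^ c) := by
    by_contra hcon
    push Not at hcon
    rw [show agree a b = true from (allBelow_iff _ _).mpr fun c hc => by
      show Nat.beq (runA a (2 ^ c)) (runA b (2 ^ c)) = true
      rw [hcon c hc]; exact Nat.beq_refl _] at h
    exact Bool.noConfusion h
  exact wordA_ne ha hb hc hne

/-- A word has the given order. -/
noncomputable def ordOK (p : ℕ) (w : List ℕ) : Bool := roots w && roots (rep p w) && agree (rep p w) [] && !agree w []

theorem of_ordOK {p : ℕ} {w : List ℕ} (h : ordOK p w = true) : word w ^ p = 1 ∧ word w ≠ 1 := by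
  simp only [ordOK, Bool.and_eq_true, Bool.not_eq_true'] at h
  obtain ⟨⟨⟨h1, h2⟩, h3⟩, h4⟩ := h
  have hn : roots [] = true := rfl
  exact ⟨by rw [← word_rep, of_agree h2 hn h3, word_nil], by simpa [word_nil] using of_not_agree h1 hn h4⟩

/-- A commuting pair of elements of order five generating more than a cyclic group. -/
noncomputable def pairOK (a b : List ℕ) : Bool :=
  ordOK 5 a && ordOK 5 b && agree (a ++ b) (b ++ a) && (List.range 5).all fun i => !agree (rep i a) b

theorem rep_roots {w : List ℕ} (h : roots w = true) : ∀ n, roots (rep n w) = true := by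
  intro n
  induction n with
  | zero => rfl
  | succ n ih => simp [roots, rep, List.all_append] at h ih ⊢; exact ⟨h, ih⟩

theorem of_pairOK {a b : List ℕ} (h : pairOK a b = true) :
    (word a ^ 5 = 1 ∧ word a ≠ 1) ∧ (word b ^ 5 = 1 ∧ word b ≠ 1) ∧ Commute (word a) (word b) ∧
      ∀ i < 5, word a ^ i ≠ word b := by
  simp only [pairOK, Bool.and_eq_true, List.all_eq_true, List.mem_range, Bool.not_eq_true'] at h
  obtain ⟨⟨⟨ha, hb⟩, hc⟩, hi⟩ := h
  have hra : roots a = true := by simp only [ordOK, Bool.and_eq_true] at ha; exact ha.1.1.1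
  have hrb : roots b = true := by simp only [ordOK, Bool.and_eq_true] at hb; exact hb.1.1.1
  have hab : roots (a ++ b) = true ∧ roots (b ++ a) = true := by
    simp [roots, List.all_append] at hra hrb ⊢; exact ⟨⟨hra, hrb⟩, hrb, hra⟩
  refine ⟨of_ordOK ha, of_ordOK hb, ?_, fun i hi5 => ?_⟩
  · show word a * word b = word b * word a
    rw [← word_append, ← word_append, of_agree hab.1 hab.2 hc]
  · rw [← word_rep]
    exact of_not_agree (rep_roots hra i) hrb (hi i hi5)

theorem glEven_ok : ∀ k < 16, glEven.getD k [] = evenIdx.map (fun i => lett.getD i []) ++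
    evenIdx.map (fun i => (lett.getD i []).map (act chevF4 (wdF k))) := by decide +kernel

theorem glFive_ok : ∀ k < 16, glFive.getD k [] = fiveIdx.map (fun i => lett.getD i []) ++
    fiveIdx.map (fun i => (lett.getD i []).map (act chevF4 (wdF k))) := by decide +kernel

theorem idx_ok : ∀ i ∈ evenIdx, i < 12 ∧ (lett.getD i []).length ≠ 3 := by decide

theorem five_sub : ∀ i ∈ fiveIdx, i ∈ evenIdx := by decide

theorem cert13Even : ∀ k < 16, 7 ≤ k → ordOK 13 (cat (glEven.getD k []) (w13Even.getD k [])) = true := by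
  decide +kernel

theorem cert3Even : ∀ k < 16, 9 ≤ k → ordOK 3 (cat (glEven.getD k []) (w3Even.getD k [])) = true := by
  decide +kernel

theorem cert13Five : ∀ k < 16, 11 ≤ k → ordOK 13 (cat (glFive.getD k []) (w13Five.getD k [])) = true := by
  decide +kernel

theorem cert25Five : ∀ k < 16, 13 ≤ k →
    pairOK (cat (glFive.getD k []) (w5a.getD k [])) (cat (glFive.getD k []) (w5b.getD k [])) = true := by
  decide +kernel

/-- A word in letters and in their conjugates by a Weyl element lies with them. -/
theorem cat_mem (M : Subgroup (GL chevF4.Idx K₂)) {k : ℕ} {E : List ℕ} {gs : List (List ℕ)}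
    (hgs : gs = E.map (fun i => lett.getD i []) ++ E.map (fun i => (lett.getD i []).map (act chevF4 (wdF k))))
    (h1 : ∀ i ∈ E, word (lett.getD i []) ∈ M)
    (h2 : ∀ i ∈ E, nk K₂ k * word (lett.getD i []) * (nk K₂ k)⁻¹ ∈ M) (hE : ∀ i ∈ E, i < 12)
    (w : List ℕ) : word (cat gs w) ∈ M := by
  have hg : ∀ j, word (gs.getD j []) ∈ M := by
    intro j
    by_cases hj : j < gs.length
    · rw [List.getD_eq_getElem _ _ hj]
      have hm := List.getElem_mem hj
      generalize gs[j] = l at hm ⊢
      rw [hgs, List.mem_append, List.mem_map, List.mem_map] at hm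
      rcases hm with ⟨i, hi, rfl⟩ | ⟨i, hi, rfl⟩
      · exact h1 i hi
      · rw [← word_conj]
        · exact h2 i hi
        · intro r hr
          have hl : lett.getD i [] ∈ lett := by
            rw [List.getD_eq_getElem lett [] (show i < lett.length from hE i hi)]; exact List.getElem_mem _
          exact (lett_used _ hl r hr).2.1
    · rw [List.getD_eq_default _ _ (not_lt.mp hj), word_nil]; exact one_mem _
  induction w with
  | nil => rw [cat, List.map_nil, List.flatten_nil, word_nil]; exact one_mem _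
  | cons i w ih =>
    rw [cat, List.map_cons, List.flatten_cons, word_append]
    exact mul_mem (hg i) ih

/-- The Sylow subgroup of the derived group. -/
noncomputable def sylD : Subgroup (GL chevF4.Idx K₂) := syl ⊓ titsC

/-- Even products of letters lie in the Sylow subgroup of the derived group. -/
theorem flat_sylD {L : List (List ℕ)} (hL : ∀ l ∈ L, l ∈ lett) (he : outer L % 2 = 0) :
    word L.flatten ∈ sylD := by
  have hm := flat_mem hL
  refine Subgroup.mem_inf.mpr ⟨hm, ?_⟩
  rw [memC hm.2, ← Abelianization.ker_of, MonoidHom.mem_ker]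
  show psi (word L.flatten) hm.2 = 1
  obtain ⟨j, hj⟩ := Nat.dvd_of_mod_eq_zero he
  rw [psi_word hL, hj, pow_mul, pow_two, psi_bases.2.2, one_pow]

/-- The word of a list of letter indices. -/
def lw (L : List ℕ) : List ℕ := (L.map fun i => lett.getD i []).flatten

/-- Even index lists. -/
def lwOK (L : List ℕ) : Bool :=
  L.all (fun i => decide (i < 12)) && outer (L.map fun i => lett.getD i []) % 2 == 0

theorem lw_mem {L : List ℕ} (h : lwOK L = true) : word (lw L) ∈ sylD := by
  simp only [lwOK, Bool.and_eq_true, List.all_eq_true, decide_eq_true_eq, beq_iff_eq] at h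
  refine flat_sylD (fun l hl => ?_) h.2
  obtain ⟨i, hi, rfl⟩ := List.mem_map.mp hl
  rw [List.getD_eq_getElem lett [] (show i < lett.length from h.1 i hi)]; exact List.getElem_mem _

/-- One commutator record: `t` is the commutator of `g` and `s`. -/
noncomputable def recOK (g s t : List ℕ) : Bool :=
  roots (g ++ s) && roots (t ++ (s ++ g)) && agree (g ++ s) (t ++ (s ++ g))

theorem rec_mem {n : ℕ} {g s t : List ℕ} (hg : word g ∈ sylD.lowerCentralSeries n) (hs : word s ∈ sylD)
    (h : recOK g s t = true) : word t ∈ sylD.lowerCentralSeries (n + 1) := by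
  simp only [recOK, Bool.and_eq_true] at h
  have e := of_agree h.1.1 h.1.2 h.2
  rw [word_append, word_append, word_append] at e
  have et : word t = ⁅word g, word s⁆ := by
    rw [commutatorElement_def, e]; group
  rw [et, Subgroup.lowerCentralSeries_succ]
  exact Subgroup.commutator_mem_commutator hg hs

/-- Membership of the four letters in the fifth term. -/
theorem five_mem : ∀ i ∈ fiveIdx, word (lett.getD i []) ∈ sylD.lowerCentralSeries 4 := by
  have hs : ∀ L ∈ ([[1], [0, 2], [1, 3], [0, 4], [3], [2, 5]] : List (List ℕ)), word (lw L) ∈ sylD :=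
    fun L hL => lw_mem ((show ∀ L ∈ ([[1], [0, 2], [1, 3], [0, 4], [3], [2, 5]] : List (List ℕ)),
      lwOK L = true by decide) L hL)
  have step : ∀ {n : ℕ} (g s t : List ℕ), word (lw g) ∈ sylD.lowerCentralSeries n →
      s ∈ ([[1], [0, 2], [1, 3], [0, 4], [3], [2, 5]] : List (List ℕ)) →
      recOK (lw g) (lw s) (lw t) = true → word (lw t) ∈ sylD.lowerCentralSeries (n + 1) :=
    fun g s t hg hm h => rec_mem hg (hs s hm) h
  have a0 : word (lw [1]) ∈ sylD.lowerCentralSeries 0 := hs _ (by simp)
  have b0 := step [1] [0, 2] [2, 4, 6, 8, 9, 10] a0 (by decide) (by decide +kernel)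
  have c0 := step [2, 4, 6, 8, 9, 10] [1] [7, 9, 11] b0 (by decide) (by decide +kernel)
  have c1 := step [2, 4, 6, 8, 9, 10] [0, 2] [4, 5, 6, 9] b0 (by decide) (by decide +kernel)
  have d0 := step [7, 9, 11] [0, 2] [8, 9, 11] c0 (by decide) (by decide +kernel)
  have d1 := step [4, 5, 6, 9] [0, 2] [6, 8, 10, 11] c1 (by decide) (by decide +kernel)
  have e0 := step [8, 9, 11] [0, 2] [9, 10] d0 (by decide) (by decide +kernel)
  have e1 := step [6, 8, 10, 11] [1, 3] [8, 9, 10] d1 (by decide) (by decide +kernel)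
  have e2 := step [6, 8, 10, 11] [0, 4] [9] d1 (by decide) (by decide +kernel)
  have e3 := step [8, 9, 11] [3] [10] d0 (by decide) (by decide +kernel)
  have e4 := step [8, 9, 11] [2, 5] [11] d0 (by decide) (by decide +kernel)
  have h8 : word (lw [8]) ∈ sylD.lowerCentralSeries 4 := by
    have hp : roots (lw [9, 10] ++ lw [8, 9, 10]) = true ∧ roots (lw [8]) = true ∧
        agree (lw [9, 10] ++ lw [8, 9, 10]) (lw [8]) = true := by decide +kernel
    rw [← of_agree hp.1 hp.2.1 hp.2.2, word_append]
    exact mul_mem e0 e1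
  intro i hi
  have hl : ∀ j, lw [j] = lett.getD j [] := fun j => by simp [lw]
  simp only [fiveIdx, List.mem_cons, List.not_mem_nil, or_false] at hi
  rcases hi with rfl | rfl | rfl | rfl
  · rw [← hl]; exact h8
  · rw [← hl]; exact e2
  · rw [← hl]; exact e3
  · rw [← hl]; exact e4

theorem even_mem_sylD : ∀ i ∈ evenIdx, word (lett.getD i []) ∈ sylD := by
  intro i hi
  obtain ⟨h12, h3⟩ := idx_ok i hi
  have hl : lett.getD i [] ∈ lett := by
    rw [List.getD_eq_getElem lett [] (show i < lett.length from h12)]; exact List.getElem_mem _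
  exact Subgroup.mem_inf.mpr ⟨lett_syl hl, even_mem hl h3⟩

end Cfsg.Agent.TitsTwoTrans
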