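/-
The Tits group has no faithful doubly transitive action.
-/
import Cfsg.Agent.TitsTwoTrans.Cert
import Cfsg.Agent.TitsTwoTrans.Action
import Cfsg.Agent.LeadWork.ReeOutBase

set_option autoImplicit false
set_option maxRecDepth 100000

namespace Cfsg.Agent.TitsTwoTrans

open Cfsg.Lie Cfsg.Agent.Chev Cfsg.Agent.Chev.Ree4 Cfsg.Agent.LeadWork.ReeInvolutions
  Cfsg.Agent.LeadWork.TitsIndex Cfsg.Agent.LeadWork.TitsSimple Cfsg.Agent.Forms.CharP MulAction
open Cfsg.Agent.LeadWork.ReeOut (Bt Xg Cell cell_split card_xg)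

local notation "K₂" => ZMod 2
local notation "T" => tw K₂ 0


attribute [local irreducible] word

/-- The derived group. -/
abbrev D : Type := ↥(commutator ↥(tw K₂ 0))

theorem bt_le_syl : Bt K₂ 0 ≤ syl := by
  intro g hg
  obtain ⟨a, ha, d, hd, rfl⟩ := fixed_borel_split ctx0 hg.1 (sig_of_mem ctx0 hg.2)
  rw [diag_bot, Subgroup.mem_bot] at hd
  subst hd
  rw [mul_one]
  exact ha

theorem card_syl : Nat.card ↥syl = 2 ^ 12 := by rw [card_pos_tw ctx0]; norm_num

theorem card_xg_two {k : ℕ} (hk : k < 16) : Nat.card ↥(Xg K₂ 0 k) = 2 ^ depF.getD k 0 := by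
  rw [card_xg ctx0 hk]; norm_num

/-- A subgroup missing the long cells is small. -/
theorem card_le_cells (H : Subgroup (GL chevF4.Idx K₂)) (hH : H ≤ T) (K0 : ℕ) (hK : K0 ≤ 16) (A : ℕ)
    (hA : ∀ d : ℕ, d ∣ Nat.card H → d ∣ 2 ^ 12 → d ≤ A)
    (h : ∀ g ∈ H, ∃ k < K0, Cell 0 k g) :
    Nat.card H ≤ (∑ k : Fin K0, 2 ^ depF.getD k 0) * A := by
  classical
  have : Finite (GL chevF4.Idx K₂) := inferInstance
  have hB : ∀ g : H, ∃ p : Σ k : Fin K0, ↥(Xg K₂ 0 k), ∃ b ∈ Bt K₂ 0,
      (g : GL chevF4.Idx K₂) = b * nk K₂ p.1 * (p.2 : GL chevF4.Idx K₂) := by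
    rintro ⟨g, hg⟩
    obtain ⟨k, hk, b, hb, u, hu, e⟩ := h g hg
    exact ⟨⟨⟨k, hk⟩, u, hu⟩, b, hb, e⟩
  choose π b hb he using hB
  let r : (Σ k : Fin K0, ↥(Xg K₂ 0 k)) → H := Function.invFun π
  have hr : ∀ g, π (r (π g)) = π g := fun g => Function.invFun_eq ⟨g, rfl⟩
  have hmem : ∀ g : H, (g : GL chevF4.Idx K₂) * (r (π g) : GL chevF4.Idx K₂)⁻¹ ∈ H ⊓ syl := by
    intro g
    refine Subgroup.mem_inf.mpr ⟨mul_mem g.2 (inv_mem (r (π g)).2), ?_⟩
    rw [he g, he (r (π g)), hr g]
    rw [show b g * nk K₂ ↑(π g).1 * ↑(π g).2 * (b (r (π g)) * nk K₂ ↑(π g).1 * ↑(π g).2)⁻¹ =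
      b g * (b (r (π g)))⁻¹ by group]
    exact bt_le_syl (mul_mem (hb g) (inv_mem (hb _)))
  let F : H → (Σ k : Fin K0, ↥(Xg K₂ 0 k)) × ↥(H ⊓ syl) := fun g => (π g, ⟨_, hmem g⟩)
  have hF : Function.Injective F := by
    intro g g' e
    have e1 : π g = π g' := congrArg Prod.fst e
    have e2 := congrArg (fun p : (Σ k : Fin K0, ↥(Xg K₂ 0 k)) × ↥(H ⊓ syl) => (p.2 : GL chevF4.Idx K₂)) e
    simp only [F] at e2
    rw [← e1] at e2
    exact Subtype.ext (mul_right_cancel e2)
  refine (Nat.card_le_card_of_injective F hF).trans ?_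
  rw [Nat.card_prod, Nat.card_sigma, Finset.sum_congr rfl fun (k : Fin K0) _ => card_xg_two (by omega : (k : ℕ) < 16)]
  exact Nat.mul_le_mul_left _ (hA _ (Subgroup.card_dvd_of_le inf_le_left)
    (card_syl ▸ Subgroup.card_dvd_of_le inf_le_right))

theorem syl_normalises {b x : GL chevF4.Idx K₂} (hb : b ∈ syl) (hx : x ∈ sylD) : b * x * b⁻¹ ∈ sylD :=
  Subgroup.mem_inf.mpr ⟨mul_mem (mul_mem hb hx.1) (inv_mem hb), titsC_normal hb.2 hx.2⟩

theorem lcs_stable {b x : GL chevF4.Idx K₂} (hb : b ∈ syl) {j : ℕ} (hx : x ∈ sylD.lowerCentralSeries j) :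
    b * x * b⁻¹ ∈ sylD.lowerCentralSeries j := by
  have hle : sylD.map (MulAut.conj b).toMonoidHom ≤ sylD := by
    rintro _ ⟨y, hy, rfl⟩; exact syl_normalises hb hy
  have h := Subgroup.lowerCentralSeries_mono j hle
  have e := Subgroup.map_lowerCentralSeries sylD (MulAut.conj b).toMonoidHom j
  exact h (show b * x * b⁻¹ ∈ (sylD.map (MulAut.conj b).toMonoidHom).lowerCentralSeries j from
    e ▸ ⟨x, hx, rfl⟩)

theorem card_map_conj {G : Type*} [Group G] (H : Subgroup G) (c : G) :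
    Nat.card (H.map (MulAut.conj c).toMonoidHom) = Nat.card H :=
  Nat.card_congr (H.equivMapOfInjective (MulAut.conj c).toMonoidHom (MulAut.conj c).injective).toEquiv.symm

/-- A subgroup containing a stable subgroup meets a long cell, so contains the certified elements. -/
theorem exists_certified (H : Subgroup (GL chevF4.Idx K₂)) (hH : H ≤ T) {j K0 : ℕ} (hK : K0 ≤ 16)
    (hN : sylD.lowerCentralSeries j ≤ H) {E : List ℕ} (hE : ∀ i ∈ E, i < 12)
    (hEN : ∀ i ∈ E, word (lett.getD i []) ∈ sylD.lowerCentralSeries j)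
    {gl : List (List (List ℕ))}
    (hgl : ∀ k < 16, gl.getD k [] = E.map (fun i => lett.getD i []) ++
      E.map (fun i => (lett.getD i []).map (act chevF4 (wdF k))))
    {A : ℕ} (hA : ∀ d : ℕ, d ∣ Nat.card H → d ∣ 2 ^ 12 → d ≤ A)
    (hcount : (∑ k : Fin K0, 2 ^ depF.getD k 0) * A < Nat.card H) :
    ∃ k < 16, K0 ≤ k ∧ ∃ H' : Subgroup (GL chevF4.Idx K₂), Nat.card H' = Nat.card H ∧
      ∀ w, word (cat (gl.getD k []) w) ∈ H' := by
  obtain ⟨g, hg, k, hk, hk0, b, hb, u, hu, rfl⟩ :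
      ∃ g ∈ H, ∃ k < 16, K0 ≤ k ∧ Cell 0 k g := by
    by_contra hcon
    push Not at hcon
    refine absurd (card_le_cells H hH K0 hK A hA fun g hg => ?_) (by omega)
    obtain ⟨k, hk, hc⟩ := cell_split ctx0 (hH hg)
    exact ⟨k, Nat.lt_of_not_ge fun h => hcon g hg k hk h hc, hc⟩
  have hbS : b ∈ syl := bt_le_syl hb
  have huS : u ∈ syl := bt_le_syl (LeadWork.ReeOut.xg_le_bt 0 k hu)
  refine ⟨k, hk, hk0, H.map (MulAut.conj b⁻¹).toMonoidHom,
    card_map_conj H b⁻¹, fun w => ?_⟩
  refine cat_mem _ (hgl k hk) (fun i hi => ?_) (fun i hi => ?_) hE w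
  · exact ⟨_, hN (lcs_stable hbS (hEN i hi)), by simp [MulAut.conj_apply, mul_assoc]⟩
  · refine ⟨(b * nk K₂ k * u) * (u⁻¹ * word (lett.getD i []) * u) * (b * nk K₂ k * u)⁻¹, ?_, ?_⟩
    · refine mul_mem (mul_mem hg (hN ?_)) (inv_mem hg)
      simpa using lcs_stable (inv_mem huS) (hEN i hi)
    · show b⁻¹ * _ * b⁻¹⁻¹ = _
      group

theorem dvd_of_pow_eq_one {G : Type*} [Group G] {H : Subgroup G} {x : G} (hx : x ∈ H) {p : ℕ} (hp : p.Prime)
    (h : x ^ p = 1 ∧ x ≠ 1) : p ∣ Nat.card H := by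
  have ho : orderOf x = p := (hp.eq_one_or_self_of_dvd _ (orderOf_dvd_of_pow_eq_one h.1)).resolve_left
    (orderOf_eq_one_iff.not.mpr h.2)
  rw [← ho, ← Subgroup.orderOf_mk x hx]
  exact orderOf_dvd_natCard _

theorem twentyfive_dvd {G : Type*} [Group G] [Finite G] {H : Subgroup G} {a b : G} (ha : a ∈ H) (hb : b ∈ H)
    (h : (a ^ 5 = 1 ∧ a ≠ 1) ∧ (b ^ 5 = 1 ∧ b ≠ 1) ∧ Commute a b ∧ ∀ i < 5, a ^ i ≠ b) : 25 ∣ Nat.card H := by
  classical
  obtain ⟨h1, h2, hc, hne⟩ := h
  have h5 : Nat.Prime 5 := by norm_num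
  have : Fact (Nat.Prime 5) := ⟨h5⟩
  have oa : orderOf a = 5 := orderOf_eq_prime h1.1 h1.2
  have ob : orderOf b = 5 := orderOf_eq_prime h2.1 h2.2
  let φ : Subgroup.zpowers a × Subgroup.zpowers b →* G :=
    MonoidHom.noncommCoprod (Subgroup.zpowers a).subtype (Subgroup.zpowers b).subtype (by
      rintro ⟨x, hx⟩ ⟨y, hy⟩
      obtain ⟨i, rfl⟩ := Subgroup.mem_zpowers_iff.mp hx
      obtain ⟨j, rfl⟩ := Subgroup.mem_zpowers_iff.mp hy
      exact hc.zpow_zpow i j)
  have hdisj : ∀ z, z ∈ Subgroup.zpowers a → z ∈ Subgroup.zpowers b → z = 1 := by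
    intro z hza hzb
    by_contra hz
    have oz : orderOf z = 5 := (h5.eq_one_or_self_of_dvd _ (by
      rw [← ob, ← Subgroup.orderOf_mk z hzb, ← Nat.card_zpowers b]; exact orderOf_dvd_natCard _)).resolve_left
      (orderOf_eq_one_iff.not.mpr hz)
    have e : Subgroup.zpowers z = Subgroup.zpowers b :=
      Subgroup.eq_of_le_of_card_ge (Subgroup.zpowers_le.mpr hzb) (by rw [Nat.card_zpowers, Nat.card_zpowers, oz, ob])
    have hba : b ∈ Subgroup.zpowers a := (Subgroup.zpowers_le.mpr hza) (e.symm ▸ Subgroup.mem_zpowers b)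
    rw [mem_zpowers_iff_mem_range_orderOf, Finset.mem_image] at hba
    obtain ⟨i, hi, rfl⟩ := hba
    exact hne i (oa ▸ Finset.mem_range.mp hi) rfl
  have hinj : Function.Injective φ := by
    rw [injective_iff_map_eq_one]
    rintro ⟨⟨x, hx⟩, ⟨y, hy⟩⟩ e
    have e' : x * y = 1 := e
    have hx1 : x = 1 := hdisj x hx (eq_inv_of_mul_eq_one_left e' ▸ inv_mem hy)
    subst hx1
    rw [one_mul] at e'
    subst e'
    rfl
  have hr : φ.range ≤ H := by
    rintro _ ⟨⟨⟨x, hx⟩, ⟨y, hy⟩⟩, rfl⟩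
    exact mul_mem (Subgroup.zpowers_le.mpr ha hx) (Subgroup.zpowers_le.mpr hb hy)
  have hcard : Nat.card φ.range = 25 := by
    rw [← Nat.card_congr (MonoidHom.ofInjective hinj).toEquiv, Nat.card_prod, Nat.card_zpowers, Nat.card_zpowers, oa, ob]
  exact hcard ▸ Subgroup.card_dvd_of_le hr

theorem candidates : allBelow (fun n => bif Nat.blt n 3 then true else
    bif Nat.beq (Nat.mod 17971200 (Nat.mul n (Nat.sub n 1))) 0 then
      [3, 4, 5, 6, 9, 10, 13, 16, 25, 26, 27, 40, 65].contains n else true) 4241 = true := by decide +kernel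

/-- The embedding in the matrix group. -/
noncomputable def emb : D →* GL chevF4.Idx K₂ := (T).subtype.comp (commutator ↥T).subtype

theorem emb_inj : Function.Injective emb := (T).subtype_injective.comp (commutator ↥T).subtype_injective

theorem range_emb : emb.range = titsC := by rw [emb, MonoidHom.range_comp, Subgroup.range_subtype, titsC]

theorem sylP_map : (sylD.comap emb).map emb = sylD :=
  Subgroup.map_comap_eq_self (range_emb ▸ inf_le_right)

theorem sylP_two : IsPGroup 2 ↥(sylD.comap emb) :=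
  ((IsPGroup.of_card (n := 12) card_syl).to_le inf_le_left).comap_of_injective emb emb_inj

/-- There is no faithful doubly transitive action. -/
theorem no_two_transitive {Ω : Type*} [Fintype Ω] [MulAction D Ω] [FaithfulSMul D Ω]
    (hΩ : 3 ≤ Fintype.card Ω) : ¬ IsMultiplyPretransitive D Ω 2 := by
  classical
  intro h2
  have : Finite (GL chevF4.Idx K₂) := inferInstance
  have : Finite D := Finite.of_injective emb emb_inj
  have hD : Nat.card D = 17971200 := card_derived
  set n := Nat.card Ω with hn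
  rw [← Nat.card_eq_fintype_card, ← hn] at hΩ
  have hpre : IsPretransitive D Ω := isPretransitive_of_is_two_pretransitive
  -- the degree
  have hdvd : n * (n - 1) ∣ 17971200 := by
    obtain ⟨t, -, ht⟩ := Set.exists_subset_card_eq (s := (Set.univ : Set Ω)) (n := 2)
      (by rw [Set.ncard_univ]; omega)
    have hidx := IsMultiplyPretransitive.index_of_fixingSubgroup_eq (G := D) t (by rw [ht]; exact h2)
    rw [ht, mul_comm, ← Nat.descFactorial_eq_factorial_mul_choose] at hidx
    have e : n.descFactorial 2 = n * (n - 1) := by simp [Nat.descFactorial, mul_comm]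
    rw [← e, ← hidx, ← hD]
    exact Subgroup.index_dvd_card _
  have hlt : n < 4241 := by
    have := Nat.le_of_dvd (by norm_num) hdvd
    by_contra hge
    push Not at hge
    have : 4241 * 4240 ≤ n * (n - 1) := Nat.mul_le_mul hge (by omega)
    omega
  have hcase : n ∈ [3, 4, 5, 6, 9, 10, 13, 16, 25, 26, 27, 40, 65] := by
    have h := (allBelow_iff _ _).mp candidates n hlt
    rw [show Nat.blt n 3 = false from by
      rw [← Bool.not_eq_true, Nat.blt_eq]; omega, cond_false,
      show Nat.beq (Nat.mod 17971200 (Nat.mul n (Nat.sub n 1))) 0 = true from by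
        show Nat.beq (17971200 % (n * (n - 1))) 0 = true
        rw [Nat.mod_eq_zero_of_dvd hdvd] at *
        rfl, cond_true] at h
    simpa using h
  -- small degrees
  have hfac : 17971200 ∣ n.factorial := by
    rw [← hD, hn, ← Nat.card_perm]
    exact Subgroup.card_dvd_of_injective (toPermHom D Ω) MulAction.toPerm_injective
  -- point stabilisers in the matrix group
  let St : Ω → Subgroup (GL chevF4.Idx K₂) := fun x => (stabilizer D x).map emb
  have hSt : ∀ x, St x ≤ T := fun x =>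
    (Subgroup.map_le_range emb _).trans (range_emb ▸ titsC_le)
  have hStc : ∀ x, n * Nat.card (St x) = 17971200 := fun x => by
    rw [Nat.card_congr (Subgroup.equivMapOfInjective (stabilizer D x) emb emb_inj).toEquiv.symm, hn,
      ← index_stabilizer_of_transitive D x, ← hD, mul_comm]
    exact Subgroup.card_mul_index _
  have hfive : ∀ a ≤ 3, ¬ 2 ^ (a + 1) ∣ n → ∃ x, sylD.lowerCentralSeries 4 ≤ St x := by
    intro a ha hna
    obtain ⟨x, hx⟩ := exists_small_orbit (Ω := Ω) sylP_two hna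
    refine ⟨x, ?_⟩
    rw [← sylP_map, ← Subgroup.map_lowerCentralSeries]
    refine Subgroup.map_mono fun g hg => ?_
    rw [mem_stabilizer_iff]
    exact lcs_fix sylP_two (hx.trans (le_trans (Nat.pow_le_pow_right two_pos ha) le_rfl)) hg
  have hall : ¬ 2 ∣ n → ∃ x, sylD.lowerCentralSeries 0 ≤ St x := by
    intro hodd
    obtain ⟨x, hx⟩ := exists_small_orbit (Ω := Ω) sylP_two (a := 0) (by rw [zero_add, pow_one]; exact hodd)
    refine ⟨x, ?_⟩
    rw [Subgroup.lowerCentralSeries_zero, ← sylP_map]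
    refine Subgroup.map_mono fun g hg => ?_
    rw [mem_stabilizer_iff]
    rw [pow_zero, Finite.card_le_one_iff_subsingleton] at hx
    exact congrArg Subtype.val (Subsingleton.elim
      (⟨g • x, ⟨⟨g, hg⟩, rfl⟩⟩ : orbit (sylD.comap emb) x) ⟨x, mem_orbit_self x⟩)
  have hdiv : ∀ c v w : ℕ, c = 2 ^ v * w → Nat.Coprime 2 w → ∀ d, d ∣ c → d ∣ 2 ^ 12 → d ≤ 2 ^ v := by
    intro c v w hc hw d hd hd'
    obtain ⟨e, -, rfl⟩ := (Nat.dvd_prime_pow Nat.prime_two).mp hd'
    exact Nat.le_of_dvd (by positivity) ((hw.pow_left e).dvd_of_dvd_mul_right (hc ▸ hd))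
  simp only [List.mem_cons, List.not_mem_nil, or_false] at hcase
  rcases hcase with h | h | h | h | h | h | h | h | h | h | h | h | h
  iterate 7 (rw [h] at hfac; norm_num [Nat.factorial] at hfac)
  · have := dvd_of_prime_cycle (G := D) (Ω := Ω) (p := 13) (m := 2) (by norm_num) (hD ▸ by norm_num)
      (by omega) (by omega) (by omega)
    rw [hD, ← hn, h] at this
    norm_num [Nat.descFactorial] at this
  · have := dvd_of_prime_cycle (G := D) (Ω := Ω) (p := 13) (m := 11) (by norm_num) (hD ▸ by norm_num)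
      (by omega) (by omega) (by omega)
    rw [hD, ← hn, h] at this
    norm_num [Nat.descFactorial] at this
  · -- degree 26
    obtain ⟨x, hx⟩ := hfive 1 (by norm_num) (by rw [h]; norm_num)
    have hc : Nat.card (St x) = 691200 := by have := hStc x; rw [h] at this; omega
    obtain ⟨k, hk, hk0, H', hc', hw⟩ := exists_certified (St x) (hSt x) (K0 := 11) (by norm_num) hx
      (E := fiveIdx) (fun i hi => (idx_ok i (five_sub i hi)).1) five_mem glFive_ok
      (hdiv _ 10 675 (by rw [hc]; norm_num) (by norm_num)) (by rw [hc]; decide)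
    have := dvd_of_pow_eq_one (hw _) (by norm_num) (of_ordOK (cert13Five k hk hk0))
    rw [hc', hc] at this; norm_num at this
  · -- degree 27
    obtain ⟨x, hx⟩ := hall (by rw [h]; norm_num)
    have hc : Nat.card (St x) = 665600 := by have := hStc x; rw [h] at this; omega
    obtain ⟨k, hk, hk0, H', hc', hw⟩ := exists_certified (St x) (hSt x) (K0 := 9) (by norm_num) hx
      (E := evenIdx) (fun i hi => (idx_ok i hi).1) even_mem_sylD glEven_ok
      (hdiv _ 11 325 (by rw [hc]; norm_num) (by norm_num)) (by rw [hc]; decide)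
    have := dvd_of_pow_eq_one (hw _) (by norm_num) (of_ordOK (cert3Even k hk hk0))
    rw [hc', hc] at this; norm_num at this
  · -- degree 40
    obtain ⟨x, hx⟩ := hfive 3 le_rfl (by rw [h]; norm_num)
    have hc : Nat.card (St x) = 449280 := by have := hStc x; rw [h] at this; omega
    obtain ⟨k, hk, hk0, H', hc', hw⟩ := exists_certified (St x) (hSt x) (K0 := 13) (by norm_num) hx
      (E := fiveIdx) (fun i hi => (idx_ok i (five_sub i hi)).1) five_mem glFive_ok
      (hdiv _ 8 1755 (by rw [hc]; norm_num) (by norm_num)) (by rw [hc]; decide)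
    have := twentyfive_dvd (hw _) (hw _) (of_pairOK (cert25Five k hk hk0))
    rw [hc', hc] at this; norm_num at this
  · -- degree 65
    obtain ⟨x, hx⟩ := hall (by rw [h]; norm_num)
    have hc : Nat.card (St x) = 276480 := by have := hStc x; rw [h] at this; omega
    obtain ⟨k, hk, hk0, H', hc', hw⟩ := exists_certified (St x) (hSt x) (K0 := 7) (by norm_num) hx
      (E := evenIdx) (fun i hi => (idx_ok i hi).1) even_mem_sylD glEven_ok
      (hdiv _ 11 135 (by rw [hc]; norm_num) (by norm_num)) (by rw [hc]; decide)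
    have := dvd_of_pow_eq_one (hw _) (by norm_num) (of_ordOK (cert13Even k hk hk0))
    rw [hc', hc] at this; norm_num at this

end Cfsg.Agent.TitsTwoTrans
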